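import Mathlib

/-!
The largest prime `r` dividing `m.choose k` (`1 ≤ k ≤ m / 2`) satisfies `m % r < k % r`:
otherwise `r ≤ k` and `r * r ≤ m`, so `m.choose k ≤ m ^ π(r)`, which is too small.
-/

set_option autoImplicit false

namespace CfsgLib.AltDerange

theorem bernoulli_mul (x : ℕ) : ∀ n : ℕ, x ^ (n + 1) + n * x ^ n ≤ (x + 1) ^ n * x
  | 0 => by simp
  | n + 1 => by
    have h := Nat.mul_le_mul_right (x + 1) (bernoulli_mul x n)
    calc x ^ (n + 1 + 1) + (n + 1) * x ^ (n + 1)
        ≤ (x ^ (n + 1) + n * x ^ n) * (x + 1) := by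
          have : 0 ≤ n * x ^ n := Nat.zero_le _
          rw [pow_succ x (n+1), pow_succ x n]; nlinarith
      _ ≤ (x + 1) ^ n * x * (x + 1) := h
      _ = (x + 1) ^ (n + 1) * x := by ring

theorem two_mul_pow_self_le (x : ℕ) (hx : 0 < x) : 2 * x ^ x ≤ (x + 1) ^ x := by
  refine Nat.le_of_mul_le_mul_right ?_ hx
  have h := bernoulli_mul x x
  rw [pow_succ] at h
  nlinarith

theorem factorial_odd_le : ∀ a : ℕ, (2 * a + 1).factorial ≤ (a + 1) ^ (2 * a + 1)
  | 0 => by simp
  | a + 1 => by
    have ih := factorial_odd_le a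
    have hb := two_mul_pow_self_le (a + 1) a.succ_pos
    have h4 : 4 * (a + 1) ^ (2 * (a + 1)) ≤ (a + 2) ^ (2 * (a + 1)) := by
      rw [mul_comm 2 (a + 1), pow_mul, pow_mul]
      have := Nat.pow_le_pow_left hb 2
      rw [mul_pow] at this
      simpa using this
    rw [show 2 * (a + 1) + 1 = (2 * a + 1) + 1 + 1 from by ring, Nat.factorial_succ,
      Nat.factorial_succ]
    calc (2 * a + 1 + 1 + 1) * ((2 * a + 1 + 1) * (2 * a + 1).factorial)
        ≤ (2 * a + 1 + 1 + 1) * ((2 * a + 1 + 1) * (a + 1) ^ (2 * a + 1)) := by gcongr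
      _ ≤ (a + 2) * (4 * (a + 1) ^ (2 * (a + 1))) := by
          rw [show 2 * (a + 1) = (2 * a + 1) + 1 from by ring, pow_succ (a + 1) (2 * a + 1)]
          have : 0 ≤ (a + 1) ^ (2 * a + 1) := Nat.zero_le _
          nlinarith
      _ ≤ (a + 2) * (a + 2) ^ (2 * (a + 1)) := Nat.mul_le_mul_left _ h4
      _ = (a + 1 + 1) ^ (2 * a + 1 + 1 + 1) := by ring

/-- The bound used against `m.choose r`. -/
theorem factorial_mul_pow_lt (a m : ℕ) (ha : 1 ≤ a) (hm : (2 * a + 1) * (2 * a + 1) ≤ m) :
    (2 * a + 1).factorial * m ^ a < (m - 1).descFactorial (2 * a) := by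
  rcases (by omega : a = 1 ∨ a = 2 ∨ 3 ≤ a) with rfl | rfl | h3
  · obtain ⟨t, rfl⟩ : ∃ t, m = t + 9 := ⟨m - 9, by omega⟩
    simp [Nat.factorial, Nat.descFactorial_succ]
    nlinarith
  all_goals refine lt_of_lt_of_le ?_ (Nat.pow_sub_le_descFactorial _ _)
  · obtain ⟨t, rfl⟩ : ∃ t, m = t + 25 := ⟨m - 25, by omega⟩
    simp [Nat.factorial]
    have h : t + 25 - 1 + 1 - 4 = t + 21 := by omega
    simp only [Nat.add_sub_cancel, show t + 25 - 1 = t + 24 from by omega,
      show t + 24 + 1 - 4 = t + 21 from by omega] at *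
    nlinarith [Nat.zero_le (t ^ 3), Nat.zero_le (t ^ 4)]
  · obtain ⟨t, rfl⟩ : ∃ t, m = (2 * a + 1) * (2 * a + 1) + t := ⟨_, (Nat.add_sub_cancel' hm).symm⟩
    set M := (2 * a + 1) * (2 * a + 1) + t with hM
    have hMb : M - 1 + 1 - 2 * a = 4 * a * a + 2 * a + 1 + t := by
      have : M = 4 * a * a + 2 * a + 1 + t + 2 * a := by rw [hM]; ring
      omega
    rw [hMb]
    have hsq : M * (2 * (a + 1) ^ 2) ≤ (4 * a * a + 2 * a + 1 + t) ^ 2 := by
      have h' : 2 * (a + 1) ^ 2 ≤ 4 * a * a + 1 + t := by nlinarith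
      calc M * (2 * (a + 1) ^ 2) ≤ M * (4 * a * a + 1 + t) := Nat.mul_le_mul_left _ h'
        _ ≤ _ := by rw [hM]; nlinarith
    have h2a : a + 1 < 2 ^ a := by
      clear * - h3
      induction a, h3 using Nat.le_induction with
      | base => norm_num
      | succ n hn ih => rw [pow_succ]; omega
    have hMpos : 0 < M := by rw [hM]; positivity
    calc (2 * a + 1).factorial * M ^ a ≤ (a + 1) ^ (2 * a + 1) * M ^ a :=
          Nat.mul_le_mul_right _ (factorial_odd_le a)
      _ = (a + 1) * ((a + 1) ^ (2 * a) * M ^ a) := by ring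
      _ < 2 ^ a * ((a + 1) ^ (2 * a) * M ^ a) := Nat.mul_lt_mul_of_pos_right h2a (by positivity)
      _ = (M * (2 * (a + 1) ^ 2)) ^ a := by rw [mul_pow, mul_pow, ← pow_mul]; ring
      _ ≤ _ := by rw [pow_mul]; exact Nat.pow_le_pow_left hsq a

theorem pow_lt_choose {m r : ℕ} (hr : r.Prime) (hm : r * r ≤ m) :
    m ^ ((r - 1) / 2 + 1) < m.choose r := by
  rcases hr.eq_two_or_odd' with rfl | ⟨a, rfl⟩
  · norm_num at *
    rw [Nat.choose_two_right]
    have : m * 3 ≤ m * (m - 1) := Nat.mul_le_mul_left _ (by omega)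
    omega
  · have ha : 1 ≤ a := by
      rcases Nat.eq_zero_or_pos a with rfl | h
      · simp [Nat.not_prime_one] at hr
      · exact h
    rw [show (2 * a + 1 - 1) / 2 + 1 = a + 1 from by omega]
    refine Nat.lt_of_mul_lt_mul_left (a := (2 * a + 1).factorial) ?_
    rw [← Nat.descFactorial_eq_factorial_mul_choose]
    obtain ⟨m', rfl⟩ : ∃ m', m = m' + 1 := ⟨m - 1, by
      have : 0 < (2 * a + 1) * (2 * a + 1) := by positivity
      omega⟩
    rw [Nat.succ_descFactorial_succ, pow_succ, ← mul_assoc, mul_comm (m' + 1) (m'.descFactorial _)]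
    exact Nat.mul_lt_mul_of_pos_right (by simpa using factorial_mul_pow_lt a (m' + 1) ha hm)
      m'.succ_pos

theorem choose_mono_half {m : ℕ} {a b : ℕ} (hab : a ≤ b) (hb : 2 * b ≤ m) :
    m.choose a ≤ m.choose b := by
  induction b, hab using Nat.le_induction with
  | base => exact le_rfl
  | succ n hn ih => exact (ih (by omega)).trans (Nat.choose_le_succ_of_lt_half_left (by omega))

theorem not_small {m k r : ℕ} (hk : 2 * k ≤ m) (hr : r.Prime)
    (hmax : ∀ s : ℕ, s.Prime → s ∣ m.choose k → s ≤ r) (hrk : r ≤ k) (hrr : r * r ≤ m) : False := by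
  have hC : m.choose k ≠ 0 := (Nat.choose_pos (by omega)).ne'
  have hm1 : 1 ≤ m := by have := hr.one_lt; omega
  have hsub : (m.choose k).factorization.support ⊆ (Finset.range (r + 1)).filter Nat.Prime := by
    intro p hp
    rw [Nat.support_factorization, Nat.mem_primeFactors] at hp
    simp only [Finset.mem_filter, Finset.mem_range]
    exact ⟨Nat.lt_succ_of_le (hmax p hp.1 hp.2.1), hp.1⟩
  have hcard : ((Finset.range (r + 1)).filter Nat.Prime).card ≤ (r - 1) / 2 + 1 := by
    refine (Finset.card_le_card_of_injOn (fun p => (p - 1) / 2) (fun p hp => ?_) ?_).trans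
      (Finset.card_range _).le
    · simp only [Finset.coe_filter, Finset.mem_range, Set.mem_ofPred_eq] at hp
      simp only [Finset.coe_range, Set.mem_Iio]
      omega
    · intro p hp q hq h
      simp only [Finset.coe_filter, Finset.mem_range, Set.mem_ofPred_eq] at hp hq
      simp only at h
      have := hp.2.two_le
      have := hq.2.two_le
      rcases hp.2.eq_two_or_odd with h2 | h2 <;> rcases hq.2.eq_two_or_odd with h3 | h3 <;> omega
  have hle : m.choose k ≤ m ^ ((r - 1) / 2 + 1) := by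
    refine le_trans ?_ (Nat.pow_le_pow_right hm1 ((Finset.card_le_card hsub).trans hcard))
    conv_lhs => rw [← Nat.prod_factorization_pow_eq_self hC]
    exact Finset.prod_le_pow_card _ _ _ (fun p _ => Nat.pow_factorization_choose_le (by omega))
  have := pow_lt_choose hr hrr
  have := choose_mono_half hrk hk
  omega

theorem not_dvd_choose_of_lt {r a b : ℕ} (hr : r.Prime) (ha : a < r) (hb : b ≤ a) :
    ¬ r ∣ a.choose b := fun h => by
  have h' : r ∣ a.factorial := by
    rw [← Nat.choose_mul_factorial_mul_factorial hb]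
    exact (h.mul_right _).mul_right _
  have := hr.dvd_factorial.mp h'
  omega

theorem choose_spec {m k r : ℕ} (hk1 : 1 ≤ k) (hk : 2 * k ≤ m) (hr : r.Prime)
    (hd : r ∣ m.choose k) (hmax : ∀ s : ℕ, s.Prime → s ∣ m.choose k → s ≤ r) :
    m % r < k % r ∧ (r = 2 → k = 1 ∧ ∀ s : ℕ, s.Prime → s ∣ m → s = 2) := by
  have : Fact r.Prime := ⟨hr⟩
  constructor
  · by_contra h
    push Not at h
    have h1 := not_dvd_choose_of_lt hr (Nat.mod_lt m hr.pos) h
    have h2 : r ∣ (m / r).choose (k / r) := by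
      have h3 := (Choose.choose_modEq_choose_mod_mul_choose_div_nat (p := r) (n := m) (k := k))
      have h4 : r ∣ (m % r).choose (k % r) * (m / r).choose (k / r) :=
        Nat.modEq_zero_iff_dvd.mp (h3.symm.trans (Nat.modEq_zero_iff_dvd.mpr hd))
      exact (hr.dvd_mul.mp h4).resolve_left h1
    have h5 : r ≤ m / r := by
      by_contra h6
      exact not_dvd_choose_of_lt hr (by omega) (Nat.div_le_div_right (by omega)) h2
    have h7 : 1 ≤ k / r := by
      by_contra h8
      rw [Nat.lt_one_iff.mp (not_le.mp h8), Nat.choose_zero_right] at h2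
      exact hr.one_lt.ne' (Nat.dvd_one.mp h2)
    exact not_small hk hr hmax (by
      have := (Nat.one_le_div_iff hr.pos).mp h7; exact this)
      (le_trans (Nat.mul_le_mul_right r h5) (Nat.div_mul_le_self m r))
  · rintro rfl
    have h1 : k = 1 := by
      by_contra h
      exact not_small hk hr hmax (by omega) (by omega)
    subst h1
    refine ⟨rfl, fun s hs hsd => ?_⟩
    have := hmax s hs (by rwa [Nat.choose_one_right])
    have := hs.two_le
    omega

end CfsgLib.AltDerange
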