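import Cfsg.Agent.AltDerange.Perm

/-!
Degree six: for every proper subgroup `S` of `A₆` and the largest prime `r` dividing its
index, some element of order `r` is conjugate to no element of `S`.
-/

set_option autoImplicit false

namespace CfsgLib.AltDerange

open Equiv Equiv.Perm
open scoped Pointwise

theorem dvd_card_of_conj_mem {A : Type*} [Group A] [Finite A] (S : Subgroup A) {r : ℕ}
    {x c : A} (hx : orderOf x = r) (h : c⁻¹ * x * c ∈ S) : r ∣ Nat.card S := by
  have h1 : orderOf (c⁻¹ * x * c) = r := by
    rw [← hx]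
    simpa using orderOf_injective (MulAut.conj c⁻¹).toMonoidHom (MulAut.conj c⁻¹).injective x
  rw [← h1, ← Subgroup.orderOf_mk (c⁻¹ * x * c) h]
  exact orderOf_dvd_natCard _

/-- If `r ∤ #S`, any element of order `r` works. -/
theorem exists_of_not_dvd {A : Type*} [Group A] [Finite A] (S : Subgroup A) {r : ℕ}
    (hr : r.Prime) (hA : r ∣ Nat.card A) (hS : ¬ r ∣ Nat.card S) :
    ∃ x : A, orderOf x = r ∧ ∀ c : A, c⁻¹ * x * c ∉ S := by
  haveI : Fact r.Prime := ⟨hr⟩
  obtain ⟨x, hx⟩ := exists_prime_orderOf_dvd_card' r hA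
  exact ⟨x, hx, fun c h => hS (dvd_card_of_conj_mem S hx h)⟩

/-- A `p`-element is conjugate into every subgroup of index prime to `p`. -/
theorem exists_conj_mem_of_not_dvd_index {A : Type*} [Group A] [Finite A] (S : Subgroup A)
    {p : ℕ} [Fact p.Prime] (hS : ¬ p ∣ S.index) {x : A} (hx : IsPGroup p (Subgroup.zpowers x)) :
    ∃ c : A, c⁻¹ * x * c ∈ S := by
  rw [Subgroup.index] at hS
  obtain ⟨q, hq⟩ := hx.nonempty_fixed_point_of_prime_not_dvd_card (A ⧸ S) hS
  induction q using QuotientGroup.induction_on with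
  | _ c =>
    refine ⟨c, ?_⟩
    have h : (⟨x, Subgroup.mem_zpowers x⟩ : Subgroup.zpowers x) • (c : A ⧸ S) = (c : A ⧸ S) :=
      hq _
    change ((x * c : A) : A ⧸ S) = (c : A ⧸ S) at h
    have h2 := QuotientGroup.eq.mp h.symm
    rwa [← mul_assoc] at h2

theorem six_no_commute : ∀ y : Perm (Fin 6),
    y * (swap 0 1 * swap 1 2) = (swap 0 1 * swap 1 2) * y → y ^ 5 = 1 → y = 1 := by
  decide +kernel

theorem six_spec (S : Subgroup (alternatingGroup (Fin 6))) {r : ℕ} (hr : r.Prime)
    (hd : r ∣ S.index) (hmax : ∀ s : ℕ, s.Prime → s ∣ S.index → s ≤ r) :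
    ∃ x : alternatingGroup (Fin 6), orderOf x = r ∧
      ∀ c : alternatingGroup (Fin 6), c⁻¹ * x * c ∉ S := by
  have hA : Nat.card (alternatingGroup (Fin 6)) = 360 := by
    rw [nat_card_alternatingGroup, Nat.card_fin]; norm_num [Nat.factorial]
  have hmul := S.card_mul_index
  rw [hA] at hmul
  have hdA : r ∣ Nat.card (alternatingGroup (Fin 6)) := hd.trans S.index_dvd_card
  by_cases hS : r ∣ Nat.card S
  swap
  · exact exists_of_not_dvd S hr hdA hS
  have hrr : r * r ∣ 360 := hmul ▸ mul_dvd_mul hS hd
  have hr6 : r ≤ 5 := by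
    rw [hA] at hdA
    by_contra h
    have h360 : r ∣ 2 ^ 3 * 3 ^ 2 * 5 := hdA
    rcases hr.dvd_mul.mp h360 with h1 | h1
    · rcases hr.dvd_mul.mp h1 with h2 | h2
      · have := Nat.le_of_dvd (by norm_num) (hr.dvd_of_dvd_pow h2); omega
      · have := Nat.le_of_dvd (by norm_num) (hr.dvd_of_dvd_pow h2); omega
    · have := Nat.le_of_dvd (by norm_num) h1; omega
  interval_cases r
  · exact absurd hr (by norm_num)
  · exact absurd hr (by norm_num)
  · -- `r = 2`
    exfalso
    have h3 : ¬ 3 ∣ S.index := fun h => absurd (hmax 3 (by norm_num) h) (by norm_num)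
    have h5 : ¬ 5 ∣ S.index := fun h => absurd (hmax 5 (by norm_num) h) (by norm_num)
    have h45 : 45 ∣ Nat.card S := by
      have c3 : Nat.Coprime (3 ^ 2) S.index :=
        Nat.Coprime.pow_left 2 ((Nat.prime_three.coprime_iff_not_dvd).mpr h3)
      have c5 : Nat.Coprime 5 S.index := ((Nat.Prime.coprime_iff_not_dvd (by norm_num)).mpr h5)
      exact (Nat.Coprime.mul_left c3 c5).dvd_of_dvd_mul_right (hmul ▸ by norm_num)
    have hidx : S.index ∣ 8 := by
      obtain ⟨d, hd'⟩ := h45
      exact ⟨d, by rw [hd'] at hmul; linarith⟩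
    have hne1 : S.index ≠ 1 := fun h => by rw [h] at hd; norm_num at hd
    have hidx8 : S.index = 8 := by
      have hle := Nat.le_of_dvd (by norm_num) hidx
      have hpos : 0 < S.index := Nat.pos_of_ne_zero S.index_ne_zero_of_finite
      by_contra h8
      have hlt : S.index ≤ 4 := by
        revert hidx hle h8; generalize S.index = n; intro hidx hle h8
        interval_cases n <;> omega
      haveI : IsSimpleGroup (alternatingGroup (Fin 6)) :=
        alternatingGroup.isSimpleGroup (by simp)
      have hker : (MulAction.toPermHom (alternatingGroup (Fin 6))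
          (alternatingGroup (Fin 6) ⧸ S)).ker = ⊥ := by
        refine ((MonoidHom.normal_ker _).eq_bot_or_eq_top).resolve_right fun h => hne1 ?_
        rw [← Subgroup.normalCore_eq_ker] at h
        have hc := S.normalCore_le
        rw [h, top_le_iff] at hc
        rw [hc, Subgroup.index_top]
      have hdvd := Subgroup.card_dvd_of_injective _ ((MonoidHom.ker_eq_bot_iff _).mp hker)
      rw [hA, Nat.card_perm, ← Subgroup.index] at hdvd
      have := Nat.le_of_dvd (Nat.factorial_pos _) hdvd
      have := Nat.factorial_le hlt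
      norm_num [Nat.factorial] at this
      omega
    have hS45 : Nat.card S = 45 := by rw [hidx8] at hmul; omega
    haveI : Fact (Nat.Prime 3) := ⟨by norm_num⟩
    haveI : Fact (Nat.Prime 5) := ⟨by norm_num⟩
    -- a three cycle in `S`
    let a : alternatingGroup (Fin 6) := ⟨swap 0 1 * swap 1 2, mem_alternatingGroup.mpr (by decide)⟩
    have ha3 : orderOf a = 3 := orderOf_eq_prime (Subtype.ext (by decide)) (by
      intro h; exact absurd (congrArg Subtype.val h) (by decide))
    obtain ⟨c, hc⟩ := exists_conj_mem_of_not_dvd_index S h3 (x := a)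
      (IsPGroup.of_card (n := 1) (by rw [Nat.card_zpowers, ha3, pow_one]))
    let s : S := ⟨c⁻¹ * a * c, hc⟩
    have hs3 : orderOf s = 3 := by
      rw [← Subgroup.orderOf_coe, ← ha3]
      simpa [s] using orderOf_injective (MulAut.conj c⁻¹).toMonoidHom (MulAut.conj c⁻¹).injective a
    obtain ⟨y, hy⟩ := exists_prime_orderOf_dvd_card' (G := S) 5 (by rw [hS45]; norm_num)
    have huniq : ∀ p : ℕ, [Fact p.Prime] → (p = 3 ∨ p = 5) → ∀ P : Sylow p S,
        (P : Subgroup S).Normal := by
      intro p _ hp P
      have h1 := Sylow.card_dvd_index P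
      have h2 := card_sylow_modEq_one p S
      have h3' := Sylow.card_eq_multiplicity P
      have hm := (P : Subgroup S).card_mul_index
      rw [hS45] at hm h3'
      suffices hone : Nat.card (Sylow p S) = 1 by
        haveI := (Nat.card_eq_one_iff_unique.mp hone).1
        exact Sylow.normal_of_subsingleton P
      rcases hp with rfl | rfl
      · rw [show (45 : ℕ).factorization 3 = 2 from by
            rw [show (45 : ℕ) = 3 ^ 2 * 5 from rfl, Nat.factorization_mul (by norm_num) (by norm_num),
              Nat.Prime.factorization_pow (by norm_num), Nat.Prime.factorization (by norm_num)]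
            simp] at h3'
        have hidx' : (P : Subgroup S).index = 5 := by
          rw [show Nat.card (P : Subgroup S) = 9 from h3'] at hm; omega
        rw [hidx'] at h1
        rcases (Nat.dvd_prime (by norm_num)).mp h1 with h | h
        · exact h
        · rw [h] at h2; exact absurd h2 (by decide)
      · rw [show (45 : ℕ).factorization 5 = 1 from by
            rw [show (45 : ℕ) = 3 ^ 2 * 5 from rfl, Nat.factorization_mul (by norm_num) (by norm_num),
              Nat.Prime.factorization_pow (by norm_num), Nat.Prime.factorization (by norm_num)]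
            simp] at h3'
        have hidx' : (P : Subgroup S).index = 9 := by
          rw [show Nat.card (P : Subgroup S) = 5 from h3'] at hm; omega
        rw [hidx'] at h1
        have hle9 := Nat.le_of_dvd (by norm_num) h1
        obtain ⟨i, hi, h⟩ := (Nat.dvd_prime_pow Nat.prime_three (m := 2)).mp (by simpa using h1)
        rw [h] at h2 ⊢
        interval_cases i <;> first | rfl | exact absurd h2 (by decide)
    obtain ⟨P, hP⟩ := (IsPGroup.of_card (n := 1)
      (show Nat.card (Subgroup.zpowers s) = 3 ^ 1 by rw [Nat.card_zpowers, hs3, pow_one])).exists_le_sylow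
    obtain ⟨Q, hQ⟩ := (IsPGroup.of_card (n := 1)
      (show Nat.card (Subgroup.zpowers y) = 5 ^ 1 by rw [Nat.card_zpowers, hy, pow_one])).exists_le_sylow
    have hcomm : Commute s y := Subgroup.commute_of_normal_of_disjoint _ _
      (huniq 3 (Or.inl rfl) P) (huniq 5 (Or.inr rfl) Q)
      (IsPGroup.disjoint_of_ne 3 5 (by norm_num) (P : Subgroup S) (Q : Subgroup S)
        P.isPGroup' Q.isPGroup') s y
      (hP (Subgroup.mem_zpowers s)) (hQ (Subgroup.mem_zpowers y))
    have hy5 : (c * (y : alternatingGroup (Fin 6)) * c⁻¹) ^ 5 = 1 := by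
      rw [conj_pow, ← Subgroup.coe_pow, ← hy, pow_orderOf_eq_one, Subgroup.coe_one, mul_one,
        mul_inv_cancel]
    have hcm : (c * (y : alternatingGroup (Fin 6)) * c⁻¹) * a
        = a * (c * (y : alternatingGroup (Fin 6)) * c⁻¹) := by
      have h : (c⁻¹ * a * c) * (y : alternatingGroup (Fin 6))
          = (y : alternatingGroup (Fin 6)) * (c⁻¹ * a * c) := congrArg Subtype.val hcomm.eq
      calc _ = c * ((y : alternatingGroup (Fin 6)) * (c⁻¹ * a * c)) * c⁻¹ := by group
        _ = c * ((c⁻¹ * a * c) * (y : alternatingGroup (Fin 6))) * c⁻¹ := by rw [h]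
        _ = _ := by group
    have h1 := six_no_commute ((c * (y : alternatingGroup (Fin 6)) * c⁻¹ : alternatingGroup (Fin 6)))
      (congrArg Subtype.val hcm) (congrArg Subtype.val hy5)
    have h2 : (c * (y : alternatingGroup (Fin 6)) * c⁻¹) = 1 := Subtype.ext h1
    rw [conj_eq_one_iff] at h2
    rw [show y = 1 from Subtype.ext h2, orderOf_one] at hy
    norm_num at hy
  · -- `r = 3`
    haveI : Fact (Nat.Prime 3) := ⟨by norm_num⟩
    have h9 : ¬ 3 ^ 2 ∣ Nat.card S := by
      intro h
      have : 3 ^ 2 * 3 ∣ 360 := hmul ▸ mul_dvd_mul h hd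
      norm_num at this
    let a : alternatingGroup (Fin 6) := ⟨swap 0 1 * swap 1 2, mem_alternatingGroup.mpr (by decide)⟩
    let b : alternatingGroup (Fin 6) :=
      ⟨swap 0 1 * swap 1 2 * (swap 3 4 * swap 4 5), mem_alternatingGroup.mpr (by decide)⟩
    have ha3 : orderOf a = 3 := orderOf_eq_prime (Subtype.ext (by decide)) (by
      intro h; exact absurd (congrArg Subtype.val h) (by decide))
    have hb3 : orderOf b = 3 := orderOf_eq_prime (Subtype.ext (by decide)) (by
      intro h; exact absurd (congrArg Subtype.val h) (by decide))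
    by_contra hcon
    push Not at hcon
    obtain ⟨ca, hca⟩ := hcon a ha3
    obtain ⟨cb, hcb⟩ := hcon b hb3
    let sa : S := ⟨_, hca⟩
    let sb : S := ⟨_, hcb⟩
    have hsyl : ∀ s : S, orderOf s = 3 →
        Nat.card (Subgroup.zpowers s) = 3 ^ (Nat.card S).factorization 3 := by
      intro s hs
      rw [Nat.card_zpowers, hs]
      have h1 : 1 ≤ (Nat.card S).factorization 3 :=
        (Nat.Prime.dvd_iff_one_le_factorization (by norm_num) Nat.card_pos.ne').mp
          (hs ▸ orderOf_dvd_natCard s)
      have h2 : (Nat.card S).factorization 3 < 2 := Nat.lt_of_not_le fun h =>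
        h9 (((Nat.Prime.pow_dvd_iff_le_factorization (by norm_num) Nat.card_pos.ne').mpr h))
      rw [show (Nat.card S).factorization 3 = 1 by omega, pow_one]
    have hsa : orderOf sa = 3 := by
      rw [← Subgroup.orderOf_coe, ← ha3]
      simpa [sa] using orderOf_injective (MulAut.conj ca⁻¹).toMonoidHom (MulAut.conj ca⁻¹).injective a
    have hsb : orderOf sb = 3 := by
      rw [← Subgroup.orderOf_coe, ← hb3]
      simpa [sb] using orderOf_injective (MulAut.conj cb⁻¹).toMonoidHom (MulAut.conj cb⁻¹).injective b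
    obtain ⟨u, hu⟩ := MulAction.exists_smul_eq S (Sylow.ofCard _ (hsyl sa hsa))
      (Sylow.ofCard _ (hsyl sb hsb))
    have hu' : Subgroup.zpowers (u * sa * u⁻¹) = Subgroup.zpowers sb := by
      have h := congrArg Sylow.toSubgroup hu
      rw [Sylow.coe_subgroup_smul] at h
      rw [← show MulAut.conj u • Subgroup.zpowers sa = Subgroup.zpowers sb from h,
        Subgroup.pointwise_smul_def]
      exact (MonoidHom.map_zpowers (MulAut.conj u).toMonoidHom sa).symm
    have h1 : u * sa * u⁻¹ = sb ∨ u * sa * u⁻¹ = sb ^ 2 := by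
      obtain ⟨n, hn⟩ := (isOfFinOrder_of_finite sb).mem_powers_iff_mem_zpowers.mpr
        (hu' ▸ Subgroup.mem_zpowers (u * sa * u⁻¹))
      simp only at hn
      rw [← pow_mod_orderOf, hsb] at hn
      have : n % 3 < 3 := Nat.mod_lt _ (by norm_num)
      interval_cases h : n % 3
      · rw [pow_zero, eq_comm, conj_eq_one_iff] at hn
        rw [hn, orderOf_one] at hsa
        norm_num at hsa
      · exact Or.inl (by rw [← hn, pow_one])
      · exact Or.inr hn.symm
    have hsup : ∀ (d : alternatingGroup (Fin 6)) (z : alternatingGroup (Fin 6)),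
        ((d * z * d⁻¹ : alternatingGroup (Fin 6)) : Perm (Fin 6)).support.card
          = (z : Perm (Fin 6)).support.card := by
      intro d z
      simp only [Subgroup.coe_mul, Subgroup.coe_inv]
      exact card_support_conj
    have hA' : ((u * sa * u⁻¹ : S) : alternatingGroup (Fin 6))
        = ((u : alternatingGroup (Fin 6)) * ca⁻¹) * a * ((u : alternatingGroup (Fin 6)) * ca⁻¹)⁻¹ := by
      simp [sa, mul_assoc]
    rcases h1 with h1 | h1
    · have h2 := congrArg (fun s : S => ((s : alternatingGroup (Fin 6)) : Perm (Fin 6)).support.card) h1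
      rw [hA', hsup] at h2
      have hB : ((sb : S) : alternatingGroup (Fin 6)) = cb⁻¹ * b * cb⁻¹⁻¹ := by simp [sb]
      rw [hB, hsup] at h2
      exact absurd h2 (by decide)
    · have h2 := congrArg (fun s : S => ((s : alternatingGroup (Fin 6)) : Perm (Fin 6)).support.card) h1
      rw [hA', hsup] at h2
      have hB : ((sb ^ 2 : S) : alternatingGroup (Fin 6)) = cb⁻¹ * b ^ 2 * cb⁻¹⁻¹ := by
        simp [sb, sq, mul_assoc]
      rw [hB, hsup] at h2
      exact absurd h2 (by decide)
  · exact absurd hr (by norm_num)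
  · exact absurd hrr (by norm_num)

end CfsgLib.AltDerange
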