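import Cfsg.Agent.AltDerange.Choose
import Cfsg.Agent.AltDerange.Six
import Cfsg.Agent.PermPrimes.JordanCycle

/-!
For a maximal subgroup `H` of `G` (`A_m ≤ G ≤ S_m`) not containing `A_m`, some element of
`A_m` whose order is the largest prime divisor of the index is conjugate to no element of `H`.
-/

set_option autoImplicit false

namespace CfsgLib.AltDerange

open Equiv Equiv.Perm MulAction
open scoped Pointwise

variable {α : Type*} [Fintype α] [DecidableEq α]

theorem perm_apply_inv {β : Type*} (f : Perm β) (a : β) : f (f⁻¹ a) = a := f.apply_symm_apply a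

theorem not_sq_dvd_factorial {r m : ℕ} (hr : r.Prime) (hrm : r ≤ m) (hm : m < 2 * r) :
    ¬ r * r ∣ m.factorial := by
  intro h
  haveI : Fact r.Prime := ⟨hr⟩
  rw [← Nat.choose_mul_factorial_mul_factorial hrm, ← Nat.mul_factorial_pred hr.ne_zero,
    show m.choose r * (r * (r - 1).factorial) * (m - r).factorial
      = r * (m.choose r * (r - 1).factorial * (m - r).factorial) from by ring] at h
  have h1 := Nat.dvd_of_mul_dvd_mul_left hr.pos h
  have h2 : ¬ r ∣ m.choose r := by
    intro hd
    have h3 := (Choose.choose_modEq_choose_mod_mul_choose_div_nat (p := r) (n := m) (k := r))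
    rw [Nat.mod_self, Nat.choose_zero_right, one_mul, Nat.div_self hr.pos, Nat.choose_one_right,
      show m / r = 1 from Nat.div_eq_of_lt_le (by omega) (by omega)] at h3
    exact hr.one_lt.ne' (Nat.dvd_one.mp
      (Nat.modEq_zero_iff_dvd.mp (h3.symm.trans (Nat.modEq_zero_iff_dvd.mpr hd))))
  rcases hr.dvd_mul.mp h1 with h4 | h4
  · rcases hr.dvd_mul.mp h4 with h5 | h5
    · exact h2 h5
    · have := hr.dvd_factorial.mp h5; omega
  · have := hr.dvd_factorial.mp h4; omega

theorem card_alt_dvd : Nat.card (alternatingGroup α) ∣ (Fintype.card α).factorial := by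
  have h := Subgroup.card_subgroup_dvd_card (alternatingGroup α)
  rwa [Nat.card_perm, Nat.card_eq_fintype_card (α := α)] at h

theorem dvd_index_of_not_mem {S : Subgroup (alternatingGroup α)} {p : ℕ} [Fact p.Prime]
    {x : alternatingGroup α} (hx : orderOf x = p) (h : ∀ c, c⁻¹ * x * c ∉ S) : p ∣ S.index := by
  by_contra hc
  obtain ⟨c, hc⟩ := exists_conj_mem_of_not_dvd_index S hc (x := x)
    (IsPGroup.of_card (n := 1) (by rw [Nat.card_zpowers, hx, pow_one]))
  exact h c hc

theorem exists_derangement (h5 : 5 ≤ Fintype.card α) (G H : Subgroup (Perm α))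
    (hHG : H ≤ G) (hAG : alternatingGroup α ≤ G) (hAH : ¬ alternatingGroup α ≤ H)
    (hmaxH : ∀ K : Subgroup (Perm α), H ≤ K → K ≤ G → K = H ∨ K = G) {r : ℕ} (hr : r.Prime)
    (hd : r ∣ (H.subgroupOf (alternatingGroup α)).index)
    (hmax : ∀ s : ℕ, s.Prime → s ∣ (H.subgroupOf (alternatingGroup α)).index → s ≤ r) :
    ∃ x : alternatingGroup α, orderOf x = r ∧
      ∀ c : alternatingGroup α, c⁻¹ * x * c ∉ H.subgroupOf (alternatingGroup α) := by
  classical
  haveI : Fact r.Prime := ⟨hr⟩
  set S := H.subgroupOf (alternatingGroup α) with hS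
  have hdA : r ∣ Nat.card (alternatingGroup α) := hd.trans S.index_dvd_card
  have hrm : r ≤ Fintype.card α := hr.dvd_factorial.mp (hdA.trans card_alt_dvd)
  have hbig : Fintype.card α < 2 * r → ∃ x : alternatingGroup α, orderOf x = r ∧
      ∀ c : alternatingGroup α, c⁻¹ * x * c ∉ S := by
    intro h2
    refine exists_of_not_dvd S hr hdA fun hc => not_sq_dvd_factorial hr hrm h2 ?_
    refine (mul_dvd_mul hc hd).trans ?_
    rw [S.card_mul_index]
    exact card_alt_dvd
  by_cases htrans : IsPretransitive H α
  · by_cases hprim : IsPreprimitive H α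
    · -- primitive
      haveI : Fact (Nat.Prime 3) := ⟨by norm_num⟩
      obtain ⟨t, ht3, hts, htc⟩ := exists_cycles (α := α) (j := 1) Nat.prime_three (by omega) one_pos
      have htA : t ∈ alternatingGroup α := mem_alt_of_odd_order (by rw [ht3]; decide)
      have h3i : 3 ∣ S.index := by
        refine dvd_index_of_not_mem (x := ⟨t, htA⟩)
          (by rw [Subgroup.orderOf_mk, ht3]) fun c hc => hAH ?_
        refine alternatingGroup_le_of_isPreprimitive_of_isThreeCycle_mem hprim
          (g := (c : Perm α)⁻¹ * t * (c : Perm α)) ?_ (by simpa [hS, Subgroup.mem_subgroupOf] using hc)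
        rw [IsThreeCycle]
        have h := cycleType_conj (σ := t) (τ := (c : Perm α)⁻¹)
        rw [inv_inv] at h
        rw [h, htc]; rfl
      have hr3 : 3 ≤ r := hmax 3 (by norm_num) h3i
      rcases Nat.lt_or_ge (Fintype.card α) (r + 3) with hlt | hge
      · exact hbig (by omega)
      · obtain ⟨x, hx, hxs, hxc⟩ := exists_cycles (α := α) (j := 1) hr (by omega) one_pos
        have hxA : x ∈ alternatingGroup α := mem_alt_of_odd_order (by
          rw [hx]; exact hr.odd_of_ne_two (by omega))
        refine ⟨⟨x, hxA⟩, by rw [Subgroup.orderOf_mk, hx], fun c hc => hAH ?_⟩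
        have hcy : ((c : Perm α)⁻¹ * x * (c : Perm α)).cycleType = {r} := by
          have h := cycleType_conj (σ := x) (τ := (c : Perm α)⁻¹)
          rw [inv_inv] at h
          rw [h, hxc]; rfl
        refine CfsgLib.PermPrimes.alternatingGroup_le_of_primitive_pCycle H hprim hr hge
          (g := (c : Perm α)⁻¹ * x * (c : Perm α)) ?_ ?_
          (by simpa [hS, Subgroup.mem_subgroupOf] using hc)
        · rw [← card_cycleType_eq_one, hcy, Multiset.card_singleton]
        · rw [← sum_cycleType, hcy, Multiset.sum_singleton]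
    · -- imprimitive
      obtain ⟨q, hq, hq1, hq2⟩ := Nat.exists_prime_lt_and_le_two_mul (Fintype.card α / 2) (by omega)
      have hqm : Fintype.card α < 2 * q := by omega
      have key : ∀ p : ℕ, p.Prime → Fintype.card α < 2 * p → ∀ x : alternatingGroup α,
          orderOf x = p → ∀ c, c⁻¹ * x * c ∉ S := by
        intro p hp hpm x hx c hc
        have h1 : (c⁻¹ * x * c) ^ p = 1 := by
          rw [← hx]
          simp [pow_orderOf_eq_one, ← MulAut.conj_symm_apply, ← map_pow]
        have h2 := imprimitive_eq_one hprim hp hpm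
          (x := ((c⁻¹ * x * c : alternatingGroup α) : Perm α)) hc
          (by simpa using congrArg Subtype.val h1)
        have h3 : c⁻¹ * x * c = 1 := Subtype.ext h2
        have h4 : x = 1 := by
          calc x = c * (c⁻¹ * x * c) * c⁻¹ := by group
            _ = 1 := by rw [h3]; group
        rw [h4, orderOf_one] at hx
        exact hp.one_lt.ne hx
      haveI : Fact q.Prime := ⟨hq⟩
      obtain ⟨z, hz, hzs, hzc⟩ := exists_cycles (α := α) (j := 1) hq (by omega) one_pos
      have hzA : z ∈ alternatingGroup α := mem_alt_of_odd_order (by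
        rw [hz]; exact hq.odd_of_ne_two (by omega))
      have hzo : orderOf (⟨z, hzA⟩ : alternatingGroup α) = q := by rw [Subgroup.orderOf_mk, hz]
      have hqr : q ≤ r := hmax q hq (dvd_index_of_not_mem hzo (key q hq hqm _ hzo))
      obtain ⟨x, hx⟩ := exists_prime_orderOf_dvd_card' r hdA
      exact ⟨x, hx, key r hr (by omega) x hx⟩
  · -- intransitive
    obtain ⟨O, hk1, hk2, hinv⟩ : ∃ O : Finset α, 1 ≤ O.card ∧ 2 * O.card ≤ Fintype.card α ∧
        ∀ h ∈ H, ∀ a, h a ∈ O ↔ a ∈ O := by
      have hne : Nonempty α := Fintype.card_pos_iff.mp (by omega)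
      obtain ⟨a₀⟩ := hne
      let O : Finset α := (orbit H a₀).toFinset
      have hO : ∀ h ∈ H, ∀ a, h a ∈ O ↔ a ∈ O := by
        intro h hh a
        simp only [O, Set.mem_toFinset]
        exact (orbit_eq_iff (G := H)).symm.trans
          (by rw [show h a = (⟨h, hh⟩ : H) • a from rfl, MulAction.orbit_smul]; exact orbit_eq_iff)
      have hne' : O.Nonempty := ⟨a₀, Set.mem_toFinset.mpr (mem_orbit_self a₀)⟩
      have hnu : O ≠ Finset.univ := fun hu => htrans ⟨fun a b => by
        have ha : a ∈ O := hu ▸ Finset.mem_univ a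
        have hb : b ∈ O := hu ▸ Finset.mem_univ b
        simp only [O, Set.mem_toFinset] at ha hb
        rw [← orbit_eq_iff.mpr ha] at hb
        exact hb⟩
      have hlt : O.card < Fintype.card α := (Finset.card_lt_iff_ne_univ O).mpr hnu
      rcases Nat.lt_or_ge (Fintype.card α) (2 * O.card) with h | h
      · refine ⟨Oᶜ, by rw [Finset.card_compl]; omega, by rw [Finset.card_compl]; omega,
          fun h hh a => ?_⟩
        simp only [Finset.mem_compl, hO h hh a]
      · exact ⟨O, hne'.card_pos, h, hO⟩
    have h2c : 2 ≤ Oᶜ.card := by rw [Finset.card_compl]; omega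
    let K : Subgroup (Perm α) := stabilizer (Perm α) O ⊓ G
    have hKmem : ∀ g : Perm α, g ∈ stabilizer (Perm α) O ↔ ∀ a, g a ∈ O ↔ a ∈ O := by
      intro g
      rw [mem_stabilizer_iff]
      constructor
      · intro hg a
        conv_lhs => rw [← hg]
        exact Finset.smul_mem_smul_finset_iff g
      · intro hg
        ext a
        rw [Finset.mem_smul_finset]
        constructor
        · rintro ⟨b, hb, rfl⟩; exact (hg b).mpr hb
        · intro ha
          refine ⟨g⁻¹ a, ?_, by simp⟩
          rw [← hg, perm_apply_inv]; exact ha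
    have hKA : ¬ alternatingGroup α ≤ K := by
      intro hle
      obtain ⟨a, ha⟩ := Finset.card_pos.mp hk1
      obtain ⟨b, hb⟩ : ∃ b, b ∈ Oᶜ := Finset.card_pos.mp (by omega)
      obtain ⟨c, hc, hcO⟩ := exists_alt_image_eq O (O.image (swap a b))
        (Finset.card_image_of_injective _ (swap a b).injective).symm h2c
      have h1 := ((hKmem c).mp (hle hc).1 (c⁻¹ b)).symm
      have h2 := hcO (c⁻¹ b)
      rw [perm_apply_inv] at h1 h2
      rw [Finset.mem_compl] at hb
      exact hb (h1.mp (h2.mp (Finset.mem_image.mpr ⟨a, ha, swap_apply_left a b⟩)))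
    have hKH : K = H := by
      rcases hmaxH K (le_inf (fun g hg => (hKmem g).mpr (hinv g hg)) hHG) inf_le_right with h | h
      · exact h
      · exact absurd (h ▸ hAG) hKA
    have hSeq : S = stabilizer (alternatingGroup α) O := by
      ext g
      rw [hS, ← hKH, Subgroup.mem_subgroupOf, Subgroup.mem_inf]
      exact ⟨fun h => h.1, fun h => ⟨h, hAG g.2⟩⟩
    have hindex : S.index = (Fintype.card α).choose O.card := by
      rw [hSeq, index_stabilizer]
      have horb : orbit (alternatingGroup α) O
          = ((Finset.univ.powersetCard O.card : Finset (Finset α)) : Set (Finset α)) := by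
        ext O'
        simp only [Finset.mem_coe, Finset.mem_powersetCard, Finset.subset_univ, true_and]
        constructor
        · rintro ⟨g, rfl⟩
          exact Finset.card_smul_finset (g : Perm α) O
        · intro hO'
          obtain ⟨c, hc, hcO⟩ := exists_alt_image_eq O O' hO'.symm h2c
          refine ⟨⟨c, hc⟩, ?_⟩
          change c • O = O'
          ext a
          rw [Finset.mem_smul_finset]
          constructor
          · rintro ⟨b, hb, rfl⟩; exact (hcO b).mpr hb
          · intro ha
            refine ⟨c⁻¹ a, ?_, by simp⟩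
            rw [← hcO, perm_apply_inv]; exact ha
      rw [horb, Set.ncard_coe_finset, Finset.card_powersetCard, Finset.card_univ]
    rw [hindex] at hd hmax
    obtain ⟨hlt, htwo⟩ := choose_spec hk1 hk2 hr hd hmax
    obtain ⟨x, hx, hxs, hxc⟩ := exists_cycles (α := α) (j := Fintype.card α / r) hr
      (Nat.mul_div_le _ _) (Nat.div_pos hrm hr.pos)
    have hxA : x ∈ alternatingGroup α := by
      rcases hr.eq_two_or_odd' with rfl | hodd
      · obtain ⟨-, hpow⟩ := htwo rfl
        obtain ⟨e, he⟩ : ∃ e, Fintype.card α = 2 ^ e :=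
          ⟨_, Nat.eq_prime_pow_of_unique_prime_dvd (by omega) fun {d} hdp hdd => hpow d hdp hdd⟩
        have he3 : 3 ≤ e := by
          by_contra h
          have := Nat.pow_le_pow_right (show 0 < 2 by norm_num) (show e ≤ 2 by omega)
          omega
        have h4 : 4 ∣ Fintype.card α := he ▸ pow_dvd_pow 2 (show 2 ≤ e by omega)
        obtain ⟨d, hd4⟩ := h4
        rw [mem_alternatingGroup, sign_of_cycleType, hxc, Multiset.sum_replicate,
          Multiset.card_replicate, smul_eq_mul]
        exact Even.neg_one_pow ⟨3 * d, by omega⟩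
      · exact mem_alt_of_odd_order (hx ▸ hodd)
    refine ⟨⟨x, hxA⟩, by rw [Subgroup.orderOf_mk, hx], fun c hc => ?_⟩
    rw [hS, ← hKH, Subgroup.mem_subgroupOf] at hc
    have hc' := (hKmem _).mp hc.1
    refine set_not_invariant hr (hx ▸ pow_orderOf_eq_one x) hxs (O.image (c : Perm α)) ?_ fun a => ?_
    · rwa [Finset.card_image_of_injective _ (c : Perm α).injective]
    · have hmem : ∀ z, z ∈ O.image (c : Perm α) ↔ (c : Perm α)⁻¹ z ∈ O := by
        intro z
        simp only [Finset.mem_image]
        constructor
        · rintro ⟨w, hw, rfl⟩; simpa using hw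
        · intro h; exact ⟨_, h, by simp⟩
      rw [hmem, hmem]
      have := hc' ((c : Perm α)⁻¹ a)
      simpa using this

end CfsgLib.AltDerange
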