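import Mathlib

/-!
Permutations of prime order built from disjoint cycles, invariant sets, and prime elements
in intransitive and imprimitive groups.
-/

set_option autoImplicit false

namespace CfsgLib.AltDerange

open Equiv Equiv.Perm MulAction
open scoped Pointwise

variable {α : Type*} [Fintype α] [DecidableEq α]

theorem cycleType_eq_replicate {y : Perm α} {r : ℕ} (hr : r.Prime) (h : y ^ r = 1) :
    ∃ j, y.cycleType = Multiset.replicate j r := by
  refine ⟨y.cycleType.card, Multiset.eq_replicate.mpr ⟨rfl, fun i hi => ?_⟩⟩
  have h1 := dvd_of_mem_cycleType hi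
  have h2 := two_le_of_mem_cycleType hi
  exact ((Nat.dvd_prime hr).mp (h1.trans (orderOf_dvd_of_pow_eq_one h))).resolve_left (by omega)

theorem dvd_card_support {y : Perm α} {r : ℕ} (hr : r.Prime) (h : y ^ r = 1) :
    r ∣ y.support.card := by
  obtain ⟨j, hj⟩ := cycleType_eq_replicate hr h
  rw [← sum_cycleType, hj, Multiset.sum_replicate]
  exact dvd_mul_left _ _

/-- A permutation of prime order `r` with `j` cycles of length `r`. -/
theorem exists_cycles {r j : ℕ} (hr : r.Prime) (h : r * j ≤ Fintype.card α) (hj : 0 < j) :
    ∃ x : Perm α, orderOf x = r ∧ x.support.card = r * j ∧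
      x.cycleType = Multiset.replicate j r := by
  obtain ⟨x, hx⟩ := (exists_with_cycleType_iff (α := α) (m := Multiset.replicate j r)).mpr
    ⟨by rwa [Multiset.sum_replicate, smul_eq_mul, mul_comm], fun i hi => by
      rw [Multiset.eq_of_mem_replicate hi]; exact hr.two_le⟩
  refine ⟨x, ?_, ?_, hx⟩
  · rw [← lcm_cycleType, hx]
    apply Nat.dvd_antisymm
    · exact Multiset.lcm_dvd.mpr fun i hi => (Multiset.eq_of_mem_replicate hi).dvd
    · exact Multiset.dvd_lcm (Multiset.mem_replicate.mpr ⟨hj.ne', rfl⟩)
  · rw [← sum_cycleType, hx, Multiset.sum_replicate, smul_eq_mul, mul_comm]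

theorem mem_alt_of_odd_order {x : Perm α} (h : Odd (orderOf x)) : x ∈ alternatingGroup α := by
  rw [mem_alternatingGroup]
  rcases Int.units_eq_one_or (sign x) with h1 | h1
  · exact h1
  · have h2 := congrArg sign (pow_orderOf_eq_one x)
    rw [map_pow, map_one, h1, h.neg_one_pow] at h2
    exact absurd h2 (by decide)

/-- An element of order `r` moving all but `m % r` points fixes no `k`-set if `m % r < k % r`. -/
theorem set_not_invariant {x : Perm α} {r : ℕ} (hr : r.Prime) (hx : x ^ r = 1)
    (hs : x.support.card = r * (Fintype.card α / r)) (O : Finset α)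
    (hk : Fintype.card α % r < O.card % r) : ¬ ∀ a, x a ∈ O ↔ a ∈ O := by
  intro hinv
  let y : Perm {a // a ∈ O} := x.subtypePerm hinv
  have hy : y ^ r = 1 := by
    ext a
    simp [y, hx]
  have h1 := dvd_card_support hr hy
  have h2 : (y.support.map (Function.Embedding.subtype _)) = O ∩ x.support := by
    ext a
    simp [y, Subtype.ext_iff]
    tauto
  rw [← Finset.card_map (Function.Embedding.subtype _), h2] at h1
  have h3 := Finset.card_inter_add_card_sdiff O x.support
  have h4 : (O \ x.support).card ≤ Fintype.card α % r := by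
    refine (Finset.card_le_card (t := x.supportᶜ) (fun a ha => ?_)).trans ?_
    · simp only [Finset.mem_sdiff, Finset.mem_compl] at ha ⊢
      exact ha.2
    · rw [Finset.card_compl, hs]
      have := Nat.mod_add_div (Fintype.card α) r
      omega
  obtain ⟨c, hc⟩ := h1
  rw [← h3, hc, Nat.mul_add_mod] at hk
  have := Nat.mod_le (O \ x.support).card r
  omega

/-- A transitive imprimitive group has no element of prime order `q > m / 2`. -/
theorem imprimitive_eq_one {H : Subgroup (Perm α)} [IsPretransitive H α]
    (hnp : ¬ IsPreprimitive H α) {q : ℕ} (hq : q.Prime) (hqm : Fintype.card α < 2 * q)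
    {x : Perm α} (hx : x ∈ H) (hxq : x ^ q = 1) : x = 1 := by
  obtain ⟨B, hB, hne, huniv⟩ : ∃ B : Set α, IsBlock H B ∧ B.Nontrivial ∧ B ≠ Set.univ := by
    by_contra hcon
    push Not at hcon
    refine hnp ?_
    constructor
    intro B hB
    rcases B.subsingleton_or_nontrivial with h | h
    · exact Or.inl h
    · exact Or.inr (hcon B hB h)
  classical
  ext y
  rw [Perm.one_apply]
  obtain ⟨b, hb⟩ := hne.nonempty
  obtain ⟨h, hh⟩ := exists_smul_eq H b y
  let g : H := ⟨x, hx⟩
  set C : Set α := h • B with hC
  have hCb : IsBlock H C := hB.translate h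
  have hyC : y ∈ C := hh ▸ Set.smul_mem_smul_set hb
  have hcardC : C.ncard = B.ncard := by
    rw [hC, ← Set.image_smul, Set.ncard_image_of_injective _ (MulAction.injective h)]
  have hB2 : 2 ≤ B.ncard := (Set.one_lt_ncard_iff_nontrivial).mpr hne
  have hgq : g ^ q = 1 := Subtype.ext (by simpa [g] using hxq)
  have hper : MulAction.period g C ∣ q :=
    (MulAction.period_dvd_orderOf g C).trans (orderOf_dvd_of_pow_eq_one hgq)
  have hgC : g • C = C := by
    rcases (Nat.dvd_prime hq).mp hper with h1 | h1
    · simpa [h1] using MulAction.pow_period_smul g C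
    · exfalso
      have hdisj : ∀ i ∈ Finset.range q, ∀ j ∈ Finset.range q, i ≠ j →
          _root_.Disjoint ((g ^ i • C).toFinset) ((g ^ j • C).toFinset) := by
        intro i hi j hj hij
        rw [Set.disjoint_toFinset]
        rcases hCb.smul_eq_smul_or_disjoint (g ^ i) (g ^ j) with he | he
        · exfalso
          rw [Finset.mem_range] at hi hj
          rw [smul_eq_iff_eq_inv_smul, smul_smul] at he
          rcases Nat.lt_or_ge i j with hlt | hge
          · have h3 : g ^ (j - i) • C = C := by
              rw [pow_sub _ hlt.le, ← (Commute.pow_pow_self g i j).inv_left.eq]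
              exact he.symm
            rw [pow_smul_eq_iff_period_dvd, h1] at h3
            have := Nat.le_of_dvd (by omega) h3
            omega
          · have h3 : g ^ (i - j) • C = C := by
              rw [pow_sub _ hge, smul_eq_iff_eq_inv_smul, mul_inv_rev, inv_inv,
                (Commute.pow_pow_self g j i).inv_right.eq]
              exact he
            rw [pow_smul_eq_iff_period_dvd, h1] at h3
            have := Nat.le_of_dvd (by omega) h3
            omega
        · exact he
      have hc := Finset.card_biUnion hdisj
      have hle := Finset.card_le_univ ((Finset.range q).biUnion fun i => (g ^ i • C).toFinset)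
      rw [hc] at hle
      have : ∀ i, (g ^ i • C).toFinset.card = B.ncard := fun i => by
        rw [← Set.ncard_eq_toFinset_card', ← Set.image_smul,
          Set.ncard_image_of_injective _ (MulAction.injective _), hcardC]
      simp only [this, Finset.sum_const, Finset.card_range, smul_eq_mul] at hle
      nlinarith
  have hBhalf : 2 * B.ncard ≤ Fintype.card α := by
    obtain ⟨d, hd⟩ := (Set.ne_univ_iff_exists_notMem B).mp huniv
    obtain ⟨k, hk⟩ := exists_smul_eq H b d
    rcases hB.smul_eq_smul_or_disjoint k 1 with he | he
    · rw [one_smul] at he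
      exact absurd (he ▸ hk ▸ Set.smul_mem_smul_set hb) hd
    · rw [one_smul] at he
      have h1 := Set.ncard_union_eq he (Set.toFinite _) (Set.toFinite _)
      rw [← Set.image_smul, Set.ncard_image_of_injective _ (MulAction.injective k)] at h1
      have h2 := Set.ncard_le_card ((fun a => k • a) '' B ∪ B)
      rw [Nat.card_eq_fintype_card] at h2
      omega
  have hmaps : ∀ a ∈ C, g • a ∈ C := fun a ha => hgC ▸ Set.smul_mem_smul_set ha
  have hperC : MulAction.period g y ∣ q :=
    (MulAction.period_dvd_orderOf g y).trans (orderOf_dvd_of_pow_eq_one hgq)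
  rcases (Nat.dvd_prime hq).mp hperC with h1 | h1
  · have h2 := MulAction.pow_period_smul g y
    rw [h1, pow_one] at h2
    exact h2
  · exfalso
    have hpowC : ∀ i : ℕ, g ^ i • y ∈ C := by
      intro i
      induction i with
      | zero => simpa using hyC
      | succ i ih => rw [pow_succ', mul_smul]; exact hmaps _ ih
    have hinj : Set.InjOn (fun i => g ^ i • y) (Set.Iio q) := by
      intro i hi j hj hij
      simp only [Set.mem_Iio] at hi hj
      simp only at hij
      rcases Nat.lt_trichotomy i j with hlt | heq | hlt
      · exfalso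
        have h3 : g ^ (j - i) • y = y := by
          have h4 : g ^ i • (g ^ (j - i) • y) = g ^ i • y := by
            rw [← mul_smul, ← pow_add, Nat.add_sub_cancel' hlt.le, hij]
          exact MulAction.injective _ h4
        rw [pow_smul_eq_iff_period_dvd, h1] at h3
        have := Nat.le_of_dvd (by omega) h3
        omega
      · exact heq
      · exfalso
        have h3 : g ^ (i - j) • y = y := by
          have h4 : g ^ j • (g ^ (i - j) • y) = g ^ j • y := by
            rw [← mul_smul, ← pow_add, Nat.add_sub_cancel' hlt.le, hij]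
          exact MulAction.injective _ h4
        rw [pow_smul_eq_iff_period_dvd, h1] at h3
        have := Nat.le_of_dvd (by omega) h3
        omega
    have hle := Set.ncard_le_ncard_of_injOn (fun i => g ^ i • y) (fun i _ => hpowC i) hinj
      (Set.toFinite C)
    rw [← Finset.coe_Iio, Set.ncard_coe_finset, Nat.card_Iio, hcardC] at hle
    omega

/-- The alternating group is transitive on `k`-sets if the complement has two points. -/
theorem exists_alt_image_eq (O O' : Finset α) (hcard : O.card = O'.card)
    (h2 : 2 ≤ Oᶜ.card) : ∃ c ∈ alternatingGroup α, ∀ a, c a ∈ O' ↔ a ∈ O := by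
  obtain ⟨e⟩ : Nonempty ({a // a ∈ O} ≃ {a // a ∈ O'}) :=
    ⟨Fintype.equivOfCardEq (by simp [hcard])⟩
  let σ : Perm α := e.extendSubtype
  have hσ : ∀ a, σ a ∈ O' ↔ a ∈ O := by
    intro a
    constructor
    · intro h
      by_contra ha
      exact e.extendSubtype_not_mem _ ha h
    · exact fun h => e.extendSubtype_mem _ h
  rcases Int.units_eq_one_or (sign σ) with h | h
  · exact ⟨σ, mem_alternatingGroup.mpr h, hσ⟩
  · obtain ⟨a, ha, b, hb, hab⟩ := Finset.one_lt_card.mp h2
    rw [Finset.mem_compl] at ha hb
    refine ⟨σ * swap a b, ?_, fun z => ?_⟩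
    · rw [mem_alternatingGroup, map_mul, h, sign_swap hab]; rfl
    · rw [Perm.mul_apply, hσ]
      rcases eq_or_ne z a with rfl | hza
      · rw [swap_apply_left]; exact iff_of_false hb ha
      rcases eq_or_ne z b with rfl | hzb
      · rw [swap_apply_right]; exact iff_of_false ha hb
      · rw [swap_apply_of_ne_of_ne hza hzb]

end CfsgLib.AltDerange
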